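import Cfsg.Agent.H141.Ux.Stmts

/-!
# UX (S5716), UF3: common quadratic forms are rare (helper442)
-/

set_option autoImplicit false

namespace Cfsg.Agent.H442.Ux

open Module Cfsg.Agent.H847.Bs Cfsg.Agent.LieClassical.OrthCore Cfsg.Agent.H141.Ux

section

variable {F V : Type*} [Field F] [AddCommGroup V] [Module F V]

/-- functions which are quadratic forms with polar form `Φ.B` -/
structure IsQ (Φ : Frm F V) (Q : V → F) : Prop where
  add : ∀ u v, Q (u + v) = Q u + Q v + Φ.B u v
  smul : ∀ (c : F) (v), Q (c • v) = c ^ 2 * Q v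

theorem isQ_of {Φ : Frm F V} {Q : QuadraticForm F V} (h : ∀ u v, QuadraticMap.polar Q u v = Φ.B u v) : IsQ Φ Q :=
  ⟨fun u v => by rw [← h, QuadraticMap.polar]; ring, fun c v => by rw [QuadraticMap.map_smul, smul_eq_mul, pow_two]⟩

/-- adding the square of a linear form -/
def tw (Φ : Frm F V) (Q : V → F) (a : V) : V → F := fun v => Q v + Φ.B v a ^ 2

variable {Φ : Frm F V}

theorem B_zero_right (hs : IsSp Φ) (v : V) : Φ.B v 0 = 0 := by
  have h := Φ.smul_right 0 v 0
  rwa [zero_smul, hs.s, zero_mul] at h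

theorem B_neg_right (hs : IsSp Φ) (u v : V) : Φ.B u (-v) = -Φ.B u v := by
  have h := Φ.smul_right (-1) u v
  rwa [neg_one_smul, hs.s, neg_one_mul] at h

theorem B_comm (hs : IsSp Φ) [CharP F 2] (u v : V) : Φ.B u v = Φ.B v u := by
  have h := hs.alt (u + v)
  rw [Φ.add_left, Φ.add_right, Φ.add_right, hs.alt, hs.alt, zero_add, add_zero] at h
  rw [← CharTwo.neg_eq (Φ.B v u)]
  exact eq_neg_of_add_eq_zero_left h

theorem eq_of_B (hs : IsSp Φ) {a b : V} (h : ∀ v, Φ.B v a = Φ.B v b) : a = b := by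
  rw [← sub_eq_zero]
  apply hs.nd
  intro y
  apply Φ.refl
  rw [sub_eq_add_neg, Φ.add_right, B_neg_right hs, h, add_neg_cancel]

theorem sq_inj [CharP F 2] {a b : F} (h : a ^ 2 = b ^ 2) : a = b := by
  rcases sq_eq_sq_iff_eq_or_eq_neg.1 h with h | h
  · exact h
  · rw [h, CharTwo.neg_eq]

theorem tw_inj (hs : IsSp Φ) [CharP F 2] {Q : V → F} {a b : V} (h : ∀ v, tw Φ Q a v = tw Φ Q b v) : a = b :=
  eq_of_B hs fun v => sq_inj (add_left_cancel (h v))

theorem add_self' [CharP F 2] (a : F) : a + a = 0 := CharTwo.add_self_eq_zero a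

theorem isQ_tw (_ : IsSp Φ) [CharP F 2] {Q : V → F} (hQ : IsQ Φ Q) (a : V) : IsQ Φ (tw Φ Q a) := by
  refine ⟨fun u v => ?_, fun c v => ?_⟩
  · show Q (u + v) + Φ.B (u + v) a ^ 2 = Q u + Φ.B u a ^ 2 + (Q v + Φ.B v a ^ 2) + Φ.B u v
    rw [hQ.add, Φ.add_left, CharTwo.add_sq]
    ring
  · show Q (c • v) + Φ.B (c • v) a ^ 2 = c ^ 2 * (Q v + Φ.B v a ^ 2)
    rw [hQ.smul, Φ.smul_left]
    ring

/-- the symplectic transvections -/
def tv (hs : IsSp Φ) [CharP F 2] (c : F) (a : V) : V ≃ₗ[F] V where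
  toFun v := v + (c * Φ.B v a) • a
  map_add' u v := by
    rw [Φ.add_left, mul_add, add_smul]
    abel
  map_smul' r v := by
    rw [Φ.smul_left, RingHom.id_apply, smul_add, smul_smul]
    congr 2
    ring
  invFun v := v + (c * Φ.B v a) • a
  left_inv v := by
    show v + (c * Φ.B v a) • a + (c * Φ.B (v + (c * Φ.B v a) • a) a) • a = v
    rw [Φ.add_left, Φ.smul_left, hs.alt, mul_zero, add_zero, add_assoc, ← add_smul, add_self', zero_smul, add_zero]
  right_inv v := by
    show v + (c * Φ.B v a) • a + (c * Φ.B (v + (c * Φ.B v a) • a) a) • a = v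
    rw [Φ.add_left, Φ.smul_left, hs.alt, mul_zero, add_zero, add_assoc, ← add_smul, add_self', zero_smul, add_zero]

theorem tv_apply (hs : IsSp Φ) [CharP F 2] (c : F) (a v : V) : tv hs c a v = v + (c * Φ.B v a) • a := rfl

theorem tv_mem (hs : IsSp Φ) [CharP F 2] (c : F) (a : V) : tv hs c a ∈ Φ.Iso := by
  refine ⟨fun u v => ?_, fun v => by rw [hs.q, hs.q]⟩
  rw [tv_apply, tv_apply, Φ.add_left, Φ.add_right, Φ.add_right, Φ.smul_left, Φ.smul_left, Φ.smul_right, Φ.smul_right,
    hs.s, hs.alt, B_comm hs a v]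
  have h := add_self' (c * Φ.B u a * Φ.B v a)
  linear_combination h

theorem Q_tv (hs : IsSp Φ) [CharP F 2] {Q : V → F} (hQ : IsQ Φ Q) (c : F) (a v : V) :
    Q (tv hs c a v) = Q v + (c ^ 2 * Q a + c) * Φ.B v a ^ 2 := by
  rw [tv_apply, hQ.add, hQ.smul, Φ.smul_right, hs.s]
  ring

/-- the values `z² + z` -/
def pF [CharP F 2] : F →+ F where
  toFun z := z ^ 2 + z
  map_zero' := by ring
  map_add' x y := by rw [CharTwo.add_sq]; ring

theorem pF_apply [CharP F 2] (z : F) : pF z = z ^ 2 + z := rfl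

theorem exists_tv (hs : IsSp Φ) [CharP F 2] {Q : V → F} (hQ : IsQ Φ Q) {a : V} (ha : Q a ∈ (pF (F := F)).range) :
    ∃ g ∈ Φ.Iso, ∀ v, Q (g v) = tw Φ Q a v := by
  obtain ⟨z, hz⟩ := ha
  rw [pF_apply] at hz
  obtain ⟨c, hc⟩ : ∃ c : F, c ^ 2 * Q a + c = 1 := by
    by_cases h0 : Q a = 0
    · exact ⟨1, by rw [h0]; ring⟩
    · refine ⟨z / Q a, ?_⟩
      field_simp
      rw [← hz]
      ring
  exact ⟨tv hs c a, tv_mem hs c a, fun v => by rw [Q_tv hs hQ, hc, one_mul]; rfl⟩

theorem index_pF [CharP F 2] [Finite F] : (pF (F := F)).range.index = 2 := by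
  have h1 : Nat.card (pF (F := F)).ker = 2 := by
    have h2 : ((pF (F := F)).ker : Set F) = {0, 1} := by
      ext z
      rw [SetLike.mem_coe, AddMonoidHom.mem_ker, pF_apply, Set.mem_insert_iff, Set.mem_singleton_iff]
      constructor
      · intro h
        have h3 : z * (z + 1) = 0 := by rw [← h]; ring
        rcases mul_eq_zero.1 h3 with h4 | h4
        · exact Or.inl h4
        · right
          rw [← CharTwo.neg_eq (1 : F)]
          exact eq_neg_of_add_eq_zero_left h4
      · rintro (h | h)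
        · rw [h]; ring
        · rw [h, one_pow, add_self']
    have h3 : Nat.card (pF (F := F)).ker = ((pF (F := F)).ker : Set F).ncard := rfl
    rw [h3, h2, Set.ncard_pair zero_ne_one]
  have h4 := AddSubgroup.card_eq_card_quotient_mul_card_addSubgroup (pF (F := F)).ker
  have h5 : Nat.card (F ⧸ (pF (F := F)).ker) = Nat.card (pF (F := F)).range :=
    Nat.card_congr (QuotientAddGroup.quotientKerEquivRange (pF (F := F))).toEquiv
  have h6 := (pF (F := F)).range.card_mul_index
  have h7 : 0 < Nat.card (pF (F := F)).range := Nat.card_pos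
  rw [h5, h1] at h4
  exact Nat.eq_of_mul_eq_mul_left h7 (h6.trans h4)

/-- many `a` with `Q a` of the form `z² + z` -/
theorem card_Z [CharP F 2] [Finite F] [Finite V] {Q : V → F} (hQ : IsQ Φ Q) :
    Nat.card V ≤ 4 * Nat.card {a : V // Q a ∈ (pF (F := F)).range} := by
  classical
  have hidx : ∀ a b : F, a + b ∈ (pF (F := F)).range ↔ (a ∈ (pF (F := F)).range ↔ b ∈ (pF (F := F)).range) :=
    fun a b => AddSubgroup.add_mem_iff_of_index_two index_pF
  by_cases hall : ∀ a, Q a ∈ (pF (F := F)).range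
  · have : Nat.card {a : V // Q a ∈ (pF (F := F)).range} = Nat.card V :=
      Nat.card_congr (Equiv.subtypeUnivEquiv hall)
    omega
  push Not at hall
  obtain ⟨a, ha⟩ := hall
  -- `|V| ≤ 2 |W|`
  have h1 : Nat.card V ≤ 2 * Nat.card {b : V // Φ.B a b ∈ (pF (F := F)).range} := by
    by_cases hW : ∀ b, Φ.B a b ∈ (pF (F := F)).range
    · have : Nat.card {b : V // Φ.B a b ∈ (pF (F := F)).range} = Nat.card V :=
        Nat.card_congr (Equiv.subtypeUnivEquiv hW)
      omega
    push Not at hW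
    obtain ⟨b₀, hb₀⟩ := hW
    let f : V → {b : V // Φ.B a b ∈ (pF (F := F)).range} ⊕ {b : V // Φ.B a b ∈ (pF (F := F)).range} := fun b =>
      if h : Φ.B a b ∈ (pF (F := F)).range then Sum.inl ⟨b, h⟩
      else Sum.inr ⟨b + b₀, by rw [Φ.add_right, hidx]; exact ⟨fun h' => absurd h' h, fun h' => absurd h' hb₀⟩⟩
    have hf : Function.Injective f := by
      intro b b' hbb
      by_cases h : Φ.B a b ∈ (pF (F := F)).range <;> by_cases h' : Φ.B a b' ∈ (pF (F := F)).range
      · simp only [f, dif_pos h, dif_pos h'] at hbb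
        exact congrArg Subtype.val (Sum.inl.inj hbb)
      · simp only [f, dif_pos h, dif_neg h'] at hbb
        cases hbb
      · simp only [f, dif_neg h, dif_pos h'] at hbb
        cases hbb
      · simp only [f, dif_neg h, dif_neg h'] at hbb
        exact add_right_cancel (congrArg Subtype.val (Sum.inr.inj hbb))
    have := Nat.card_le_card_of_injective f hf
    rw [Nat.card_sum] at this
    omega
  have h2 : Nat.card {b : V // Φ.B a b ∈ (pF (F := F)).range} ≤ 2 * Nat.card {a : V // Q a ∈ (pF (F := F)).range} := by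
    let f : {b : V // Φ.B a b ∈ (pF (F := F)).range} →
        {a : V // Q a ∈ (pF (F := F)).range} ⊕ {a : V // Q a ∈ (pF (F := F)).range} := fun b =>
      if h : Q b.1 ∈ (pF (F := F)).range then Sum.inl ⟨b.1, h⟩
      else Sum.inr ⟨a + b.1, by
        rw [hQ.add, hidx, hidx]
        exact ⟨fun _ => b.2, fun _ => ⟨fun h' => absurd h' ha, fun h' => absurd h' h⟩⟩⟩
    have hf : Function.Injective f := by
      intro b b' hbb
      by_cases h : Q b.1 ∈ (pF (F := F)).range <;> by_cases h' : Q b'.1 ∈ (pF (F := F)).range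
      · simp only [f, dif_pos h, dif_pos h'] at hbb
        have h9 := congrArg Subtype.val (Sum.inl.inj hbb)
        exact Subtype.ext h9
      · simp only [f, dif_pos h, dif_neg h'] at hbb
        cases hbb
      · simp only [f, dif_neg h, dif_pos h'] at hbb
        cases hbb
      · simp only [f, dif_neg h, dif_neg h'] at hbb
        have h9 := congrArg Subtype.val (Sum.inr.inj hbb)
        exact Subtype.ext (add_left_cancel h9)
    have := Nat.card_le_card_of_injective f hf
    rw [Nat.card_sum] at this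
    omega
  omega

/-- the stabiliser of `Q` -/
def St (Φ : Frm F V) (Q : V → F) : Type _ := {y : V ≃ₗ[F] V // y ∈ Φ.Iso ∧ ∀ v, Q (y v) = Q v}

/-- the stabiliser of a form is small -/
theorem card_St (hs : IsSp Φ) [CharP F 2] [Finite F] [Finite V] {Q : V → F} (hQ : IsQ Φ Q) :
    Nat.card (St Φ Q) * Nat.card V ≤ 4 * Nat.card Φ.Iso := by
  have hfin : Finite (V ≃ₗ[F] V) := Finite.of_injective (fun g : V ≃ₗ[F] V => (g : V → V)) DFunLike.coe_injective
  have hfin2 : Finite (St Φ Q) := Subtype.finite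
  have h : ∀ a : {a : V // Q a ∈ (pF (F := F)).range}, ∃ g ∈ Φ.Iso, ∀ v, Q (g v) = tw Φ Q a v :=
    fun a => exists_tv hs hQ a.2
  choose g hg hgQ using h
  have h1 : Nat.card (St Φ Q) * Nat.card {a : V // Q a ∈ (pF (F := F)).range} ≤ Nat.card Φ.Iso := by
    rw [← Nat.card_prod]
    refine Nat.card_le_card_of_injective
      (fun z : St Φ Q × {a : V // Q a ∈ (pF (F := F)).range} => (⟨z.1.1 * g z.2, Φ.Iso.mul_mem z.1.2.1 (hg z.2)⟩ : Φ.Iso)) ?_
    rintro ⟨y, a⟩ ⟨y', a'⟩ h
    have h2 : y.1 * g a = y'.1 * g a' := congrArg Subtype.val h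
    have h3 : ∀ (y : St Φ Q) (a : {a : V // Q a ∈ (pF (F := F)).range}) (v : V), Q ((y.1 * g a) v) = tw Φ Q a v := by
      intro y a v
      show Q (y.1 (g a v)) = _
      rw [y.2.2, hgQ]
    have h4 : a = a' := Subtype.ext (tw_inj hs (Q := Q) fun v => by rw [← h3 y a, ← h3 y' a', h2])
    subst h4
    have h5 : y = y' := Subtype.ext (mul_right_cancel h2)
    rw [h5]
  have h2 := card_Z (Φ := Φ) hQ
  calc Nat.card (St Φ Q) * Nat.card V ≤
      Nat.card (St Φ Q) * (4 * Nat.card {a : V // Q a ∈ (pF (F := F)).range}) := Nat.mul_le_mul_left _ h2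
    _ = 4 * (Nat.card (St Φ Q) * Nat.card {a : V // Q a ∈ (pF (F := F)).range}) := by ring
    _ ≤ _ := Nat.mul_le_mul_left _ h1

/-- two forms with the same polarisation -/
theorem exists_tw (hs : IsSp Φ) [CharP F 2] [Finite F] [Module.Finite F V] {Q Q' : V → F} (hQ : IsQ Φ Q)
    (hQ' : IsQ Φ Q') : ∃ a : V, Q' = tw Φ Q a := by
  -- `V → V*` is bijective
  let T : V →ₗ[F] Dual F V :=
    { toFun := fun a =>
        { toFun := fun v => Φ.B v a
          map_add' := fun u v => Φ.add_left u v a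
          map_smul' := fun c v => Φ.smul_left c v a }
      map_add' := fun a b => LinearMap.ext fun v => Φ.add_right v a b
      map_smul' := fun c a => LinearMap.ext fun v => by
        show Φ.B v (c • a) = c * Φ.B v a
        rw [Φ.smul_right, hs.s] }
  have hT : Function.Surjective T := by
    rw [← LinearMap.injective_iff_surjective_of_finrank_eq_finrank (Subspace.dual_finrank_eq).symm]
    intro a b h
    exact eq_of_B hs fun v => LinearMap.congr_fun h v
  let φ : F ≃+* F := frobeniusEquiv F 2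
  have hφ : ∀ z : F, (φ.symm z) ^ 2 = z := fun z => frobeniusEquiv_symm_pow_p F 2 z
  let l : Dual F V :=
    { toFun := fun v => φ.symm (Q' v - Q v)
      map_add' := fun u v => by
        rw [hQ.add, hQ'.add, ← map_add]
        congr 1
        ring
      map_smul' := fun c v => by
        apply sq_inj
        rw [hφ, RingHom.id_apply, smul_eq_mul, mul_pow, hφ, hQ.smul, hQ'.smul]
        ring }
  obtain ⟨a, ha⟩ := hT l
  refine ⟨a, funext fun v => ?_⟩
  have h1 : Φ.B v a = φ.symm (Q' v - Q v) := LinearMap.congr_fun ha v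
  rw [tw, h1, hφ]
  ring

end

/-- **UF3** -/
theorem uf3 : UF3 := by
  refine ⟨4, 0, ?_⟩
  intro F V _ _ _ _ _ Φ hs h2 _ x hx hx1
  have hchar : CharP F 2 := CharTwo.of_one_ne_zero_of_two_eq_zero one_ne_zero h2
  have hV : Finite V := Module.finite_of_finite F
  have hfin : Finite (V ≃ₗ[F] V) := Finite.of_injective (fun g : V ≃ₗ[F] V => (g : V → V)) DFunLike.coe_injective
  have key : cnt Φ.Iso (fun y => ComQ Φ x y) * Nat.card F ≤ 4 * Nat.card Φ.Iso := by
    by_cases hex : ∃ Q : V → F, IsQ Φ Q ∧ ∀ v, Q (x v) = Q v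
    swap
    · have h0 : cnt Φ.Iso (fun y => ComQ Φ x y) = 0 := by
        rw [cnt, Nat.card_eq_zero]
        left
        constructor
        rintro ⟨y, -, Q, hQ, hxQ, -⟩
        exact hex ⟨Q, isQ_of hQ, hxQ⟩
      rw [h0, zero_mul]
      exact Nat.zero_le _
    obtain ⟨Q, hQ, hxQ⟩ := hex
    -- the fixed space of `x`
    let W : Submodule F V := LinearMap.ker ((x : V →ₗ[F] V) - LinearMap.id)
    have hW : ∀ v, v ∈ W ↔ x v = v := by
      intro v
      rw [LinearMap.mem_ker, LinearMap.sub_apply, LinearMap.id_apply, sub_eq_zero]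
      rfl
    have hWV : Nat.card W * Nat.card F ≤ Nat.card V := by
      have h3 : finrank F W < finrank F V := by
        apply Submodule.finrank_lt
        intro h
        apply hx1
        apply LinearEquiv.ext
        intro v
        exact (hW v).1 (by rw [h]; trivial)
      rw [Module.natCard_eq_pow_finrank (K := F) (V := W), Module.natCard_eq_pow_finrank (K := F) (V := V), ← pow_succ]
      exact Nat.pow_le_pow_right Nat.card_pos h3
    have hy : ∀ y : {y : V ≃ₗ[F] V // y ∈ Φ.Iso ∧ ComQ Φ x y}, ∃ a : W, ∀ v, tw Φ Q a (y.1 v) = tw Φ Q a v := by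
      rintro ⟨y, hyI, Q', hQ', hxQ', hyQ'⟩
      obtain ⟨a, ha⟩ := exists_tw hs hQ (isQ_of hQ')
      have ha' : ∀ v, Q' v = tw Φ Q a v := fun v => congrFun ha v
      have hxa : x a = a := by
        apply eq_of_B hs
        intro v
        obtain ⟨w, rfl⟩ := x.surjective v
        rw [hx.1]
        have h3 := hxQ' w
        rw [ha', ha', tw, tw, hxQ] at h3
        exact (sq_inj (add_left_cancel h3)).symm
      exact ⟨⟨a, (hW a).2 hxa⟩, fun v => by rw [← ha', ← ha', hyQ']⟩
    choose a ha using hy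
    have h3 : cnt Φ.Iso (fun y => ComQ Φ x y) ≤ Nat.card (Σ a : W, St Φ (tw Φ Q a)) := by
      have : ∀ a : W, Finite (St Φ (tw Φ Q a)) := fun a => Subtype.finite
      refine Nat.card_le_card_of_injective
        (fun y : {y : V ≃ₗ[F] V // y ∈ Φ.Iso ∧ ComQ Φ x y} => (⟨a y, ⟨y.1, y.2.1, ha y⟩⟩ : Σ a : W, St Φ (tw Φ Q a))) ?_
      intro y y' h
      have h4 : (⟨a y, ⟨y.1, y.2.1, ha y⟩⟩ : Σ a : W, St Φ (tw Φ Q a)).2.1 = (⟨a y', ⟨y'.1, y'.2.1, ha y'⟩⟩ : Σ a : W, St Φ (tw Φ Q a)).2.1 :=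
        congrArg (fun z : Σ a : W, St Φ (tw Φ Q a) => z.2.1) h
      exact Subtype.ext h4
    have h4 : Nat.card (Σ a : W, St Φ (tw Φ Q a)) * Nat.card V ≤ Nat.card W * (4 * Nat.card Φ.Iso) := by
      have : Fintype W := Fintype.ofFinite _
      have : ∀ a : W, Finite (St Φ (tw Φ Q a)) := fun a => Subtype.finite
      rw [Nat.card_sigma, Finset.sum_mul]
      refine (Finset.sum_le_sum fun (a : W) _ => card_St hs (isQ_tw hs hQ (a : V))).trans ?_
      rw [Finset.sum_const, Finset.card_univ, smul_eq_mul, Nat.card_eq_fintype_card (α := W)]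
    have h5 : cnt Φ.Iso (fun y => ComQ Φ x y) * Nat.card F * Nat.card V ≤ 4 * Nat.card Φ.Iso * Nat.card V := by
      calc cnt Φ.Iso (fun y => ComQ Φ x y) * Nat.card F * Nat.card V =
          cnt Φ.Iso (fun y => ComQ Φ x y) * Nat.card V * Nat.card F := by ring
        _ ≤ Nat.card (Σ a : W, St Φ (tw Φ Q a)) * Nat.card V * Nat.card F :=
            Nat.mul_le_mul_right _ (Nat.mul_le_mul_right _ h3)
        _ ≤ Nat.card W * (4 * Nat.card Φ.Iso) * Nat.card F := Nat.mul_le_mul_right _ h4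
        _ = 4 * Nat.card Φ.Iso * (Nat.card W * Nat.card F) := by ring
        _ ≤ _ := Nat.mul_le_mul_left _ hWV
    exact Nat.le_of_mul_le_mul_right h5 Nat.card_pos
  exact_mod_cast key

end Cfsg.Agent.H442.Ux
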